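import Mathlib

set_option autoImplicit false

namespace Cfsg.Agent.Lib.Helper76.SN

open Equiv

universe u
variable {α : Type u}

/-- `σ` is a pairing: an involution with at most one fixed point. -/
def IsPairing (σ : Perm α) : Prop :=
  (∀ a, σ (σ a) = a) ∧ ∀ a b, σ a = a → σ b = b → a = b

/-- `g` moves every point inside its `σ`-orbit. -/
def Inside (σ g : Perm α) : Prop := ∀ a, g a = a ∨ g a = σ a

end Cfsg.Agent.Lib.Helper76.SN
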