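import Mathlib
import Cfsg.Agent.Lib.Helper76.SN.Defs

set_option autoImplicit false

namespace Cfsg.Agent.Lib.Helper76.SN

open Equiv

universe u
variable {α : Type u}

theorem inside_mul {σ : Perm α} (hσ : IsPairing σ) {g h : Perm α} (hg : Inside σ g)
    (hh : Inside σ h) : Inside σ (g * h) := by
  intro x
  rw [Perm.mul_apply]
  rcases hh x with h1 | h1
  · rw [h1]; exact hg x
  · rw [h1]
    rcases hg (σ x) with h2 | h2
    · right; exact h2
    · left; rw [h2, hσ.1]

variable [DecidableEq α]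

theorem inside_swap {σ : Perm α} (hσ : IsPairing σ) (a : α) : Inside σ (swap a (σ a)) := by
  intro b
  by_cases h1 : b = a
  · subst h1; right; simp
  by_cases h2 : b = σ a
  · subst h2; right; rw [swap_apply_right, hσ.1]
  · left; exact swap_apply_of_ne_of_ne h1 h2

variable [Fintype α]

theorem pairing_unique (h6 : 6 ≤ Fintype.card α) {σ σ' : Perm α} (hσ : IsPairing σ)
    (hσ' : IsPairing σ')
    (h : ∀ g, Inside σ g → Perm.sign g = 1 → ∀ a, g (σ' a) = σ' (g a)) : σ' = σ := by
  have hex : ∀ F : Finset α, F.card ≤ 4 → ∃ x, x ∉ F ∧ σ x ≠ x := by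
    intro F hF
    have h1 : 1 < (Finset.univ \ F).card := by
      have := Finset.card_sdiff_add_card_eq_card (Finset.subset_univ F)
      rw [Finset.card_univ] at this
      omega
    obtain ⟨x, hx, y, hy, hxy⟩ := Finset.one_lt_card.mp h1
    by_cases hxf : σ x = x
    · exact ⟨y, by simpa using hy, fun hyf => hxy (hσ.2 x y hxf hyf)⟩
    · exact ⟨x, by simpa using hx, hxf⟩
  have hu : ∀ a b, σ a ≠ a → σ b ≠ b → ∀ x,
      (swap a (σ a) * swap b (σ b)) (σ' x) = σ' ((swap a (σ a) * swap b (σ b)) x) := by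
    intro a b ha hb
    apply h _ (inside_mul hσ (inside_swap hσ a) (inside_swap hσ b))
    rw [Perm.sign_mul, Perm.sign_swap (Ne.symm ha), Perm.sign_swap (Ne.symm hb)]
    simp
  have main : ∀ a, σ a ≠ a → σ' a = σ a := by
    intro a ha
    obtain ⟨b, hbF, hb⟩ := hex {a, σ a} (by
      refine (Finset.card_le_two).trans (by norm_num))
    obtain ⟨c, hcF, hc⟩ := hex {a, σ a, b, σ b} (by
      refine (Finset.card_le_four).trans (by norm_num))
    simp only [Finset.mem_insert, Finset.mem_singleton, not_or] at hbF hcF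
    obtain ⟨hba, hbA⟩ := hbF
    obtain ⟨hca, hcA, hcb, hcB⟩ := hcF
    have hBa : σ b ≠ a := fun e => hbA (by rw [← e, hσ.1])
    have hCa : σ c ≠ a := fun e => hcA (by rw [← e, hσ.1])
    have hCb : σ c ≠ b := fun e => hcB (by rw [← e, hσ.1])
    have hCB : σ c ≠ σ b := fun e => hcb (σ.injective e)
    have e1 := hu a b ha hb a
    have e2 := hu a c ha hc a
    simp only [Perm.mul_apply] at e1 e2
    rw [swap_apply_of_ne_of_ne (Ne.symm hba) (Ne.symm hBa), swap_apply_left] at e1
    rw [swap_apply_of_ne_of_ne (Ne.symm hca) (Ne.symm hCa), swap_apply_left] at e2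
    have e3 : swap b (σ b) (σ' a) = swap c (σ c) (σ' a) :=
      (swap a (σ a)).injective (e1.trans e2.symm)
    by_cases c1 : σ' a = b
    · rw [c1, swap_apply_left, swap_apply_of_ne_of_ne (Ne.symm hcb) (Ne.symm hCb)] at e3
      exact absurd e3 hb
    by_cases c2 : σ' a = σ b
    · rw [c2, swap_apply_right, swap_apply_of_ne_of_ne (Ne.symm hcB) (Ne.symm hCB)] at e3
      exact absurd e3.symm hb
    rw [swap_apply_of_ne_of_ne c1 c2] at e3 e1
    by_cases c3 : σ' a = a
    · rw [c3, swap_apply_left] at e1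
      exact absurd (hσ'.2 _ _ e1.symm c3) ha
    by_cases c4 : σ' a = σ a
    · exact c4
    rw [swap_apply_of_ne_of_ne c3 c4] at e1
    exact absurd (σ'.injective e1).symm ha
  ext a
  by_cases ha : σ a = a
  · rw [ha]
    by_contra hd
    have h1 : σ (σ' a) ≠ σ' a := fun e => hd (hσ.2 _ _ e ha)
    have h2 := main _ h1
    rw [hσ'.1] at h2
    apply hd
    have h3 : σ a = σ' a := by
      have := congrArg σ h2
      rwa [hσ.1] at this
    rw [← h3, ha]
  · exact main a ha

end Cfsg.Agent.Lib.Helper76.SN
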