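import Mathlib
import Cfsg.Agent.Lib.Helper76.SN.B1

set_option autoImplicit false

namespace Cfsg.Agent.Lib.Helper76.SN

open Equiv

universe u
variable {α : Type u}

theorem ais (g : Perm α) (a : α) : g (g⁻¹ a) = a := by simp

theorem ias (g : Perm α) (a : α) : g⁻¹ (g a) = a := by simp

/-- the group of permutations moving every point inside its `σ`-orbit -/
def insideSubgroup (σ : Perm α) (hσ : IsPairing σ) : Subgroup (Perm α) where
  carrier := {g | Inside σ g}
  mul_mem' := fun hg hh => inside_mul hσ hg hh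
  one_mem' := fun _ => Or.inl rfl
  inv_mem' := by
    intro g hg a
    rcases hg (g⁻¹ a) with h | h
    · left; rw [ais] at h; exact h.symm
    · right
      rw [ais] at h
      have := congrArg σ h
      rw [hσ.1] at this
      exact this.symm

theorem inside_mul_self {σ : Perm α} (hσ : IsPairing σ) {g : Perm α} (hg : Inside σ g) :
    g * g = 1 := by
  ext a
  rw [Perm.mul_apply, Perm.one_apply]
  rcases hg a with h | h
  · rw [h, h]
  · rw [h]
    rcases hg (σ a) with h2 | h2
    · have : σ a = a := g.injective (h2.trans h.symm)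
      rw [h2, this]
    · rw [h2, hσ.1]

theorem isPGroup_insideSubgroup (σ : Perm α) (hσ : IsPairing σ) :
    IsPGroup 2 (insideSubgroup σ hσ) := by
  rintro ⟨g, hg⟩
  refine ⟨1, Subtype.ext ?_⟩
  simp only [pow_one, Subgroup.coe_pow, Subgroup.coe_one]
  rw [pow_two]
  exact inside_mul_self hσ hg

variable [Fintype α] [DecidableEq α]

theorem exists_isPairing : ∃ σ : Perm α, IsPairing σ := by
  obtain ⟨σ, hσmem, hmax⟩ := Finset.exists_max_image
    (Finset.univ.filter (fun σ : Perm α => σ * σ = 1)) (fun σ => σ.support.card) ⟨1, by simp⟩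
  have hσ2 : σ * σ = 1 := (Finset.mem_filter.mp hσmem).2
  refine ⟨σ, fun a => by have := congrArg (fun f : Perm α => f a) hσ2; simpa using this, ?_⟩
  intro a b ha hb
  by_contra hab
  have hdisj : Perm.Disjoint σ (swap a b) := by
    intro x
    by_cases hx : x = a
    · left; rw [hx, ha]
    by_cases hx' : x = b
    · left; rw [hx', hb]
    · right; exact swap_apply_of_ne_of_ne hx hx'
  have h2 : (σ * swap a b) * (σ * swap a b) = 1 := by
    rw [hdisj.commute.symm.mul_mul_mul_comm, hσ2, swap_mul_self, one_mul]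
  have := hmax (σ * swap a b) (by simp [h2])
  rw [hdisj.card_support_mul, Perm.card_support_swap hab] at this
  omega

theorem exists_pairing (T : Sylow 2 (Perm α)) :
    ∃ σ : Perm α, IsPairing σ ∧ ∀ g, Inside σ g → g ∈ T := by
  obtain ⟨σ₀, hσ₀⟩ := exists_isPairing (α := α)
  obtain ⟨Q, hQ⟩ := (isPGroup_insideSubgroup σ₀ hσ₀).exists_le_sylow
  obtain ⟨x, hx⟩ := MulAction.exists_smul_eq (Perm α) Q T
  refine ⟨x * σ₀ * x⁻¹, ⟨?_, ?_⟩, ?_⟩
  · intro a
    simp only [Perm.mul_apply, ias, hσ₀.1, ais]
  · intro a b ha hb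
    simp only [Perm.mul_apply] at ha hb
    have ha' : σ₀ (x⁻¹ a) = x⁻¹ a := by rw [Perm.eq_inv_iff_eq]; exact ha
    have hb' : σ₀ (x⁻¹ b) = x⁻¹ b := by rw [Perm.eq_inv_iff_eq]; exact hb
    exact (x⁻¹).injective (hσ₀.2 _ _ ha' hb')
  · intro g hg
    have h1 : Inside σ₀ (x⁻¹ * g * x) := by
      intro a
      simp only [Perm.mul_apply]
      rcases hg (x a) with h | h
      · left; rw [h, ias]
      · right
        rw [h]
        simp only [Perm.mul_apply, ias]
    have h2 : x⁻¹ * g * x ∈ (Q : Subgroup (Perm α)) := hQ h1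
    change g ∈ (T : Subgroup (Perm α))
    rw [← hx, Sylow.coe_subgroup_smul, Subgroup.mem_pointwise_smul_iff_inv_smul_mem]
    simpa [MulAut.smul_def, MulAut.conj_apply] using h2

end Cfsg.Agent.Lib.Helper76.SN
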