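import Mathlib
import Cfsg.Agent.Lib.Helper76.SN.Defs

set_option autoImplicit false

namespace Cfsg.Agent.Lib.Helper76.SN

open Equiv

universe u
variable {α : Type u} [Fintype α] [DecidableEq α]

omit [Fintype α] in
theorem inside_swap_K2 {σ : Perm α} (hσ : IsPairing σ) (a : α) : Inside σ (swap a (σ a)) := by
  intro x
  by_cases h1 : x = a
  · subst h1
    right
    simp
  · by_cases h2 : x = σ a
    · subst h2
      right
      rw [swap_apply_right, hσ.1]
    · left
      exact swap_apply_of_ne_of_ne h1 h2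

theorem swap_unique_K2 {T : Subgroup (Perm α)} (hT : IsPGroup 2 T) {x y z : α}
    (h1 : swap x y ∈ T) (h2 : swap x z ∈ T) (hxy : x ≠ y) (hxz : x ≠ z) : y = z := by
  by_contra hyz
  have h3 := Equiv.Perm.isThreeCycle_swap_mul_swap_same hxy hxz hyz
  have ho := h3.orderOf
  obtain ⟨k, hk⟩ := hT ⟨swap x y * swap x z, T.mul_mem h1 h2⟩
  have hk' : (swap x y * swap x z) ^ (2 ^ k) = 1 := by
    have := congrArg Subtype.val hk
    simpa using this
  have hd := orderOf_dvd_of_pow_eq_one hk'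
  rw [ho] at hd
  have := (Nat.Prime.dvd_of_dvd_pow (by norm_num : Nat.Prime 3) hd)
  omega

omit [Fintype α] in
theorem conj_swap_mem_K2 {T : Subgroup (Perm α)} {g : Perm α}
    (hg : g ∈ Subgroup.normalizer (T : Set (Perm α))) {a b : α} (h : swap a b ∈ T) :
    swap (g a) (g b) ∈ T := by
  have h1 := (Subgroup.mem_normalizer_iff.mp hg (swap a b)).mp h
  have h2 : g * swap a b * g⁻¹ = swap (g a) (g b) := by
    rw [Equiv.mul_swap_eq_swap_mul, mul_assoc, mul_inv_cancel, mul_one]
  rwa [h2] at h1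

theorem claimA_K2 {T : Subgroup (Perm α)} (hT : IsPGroup 2 T) {σ : Perm α} (hσ : IsPairing σ)
    (h : ∀ g, Inside σ g → g ∈ T) {g : Perm α}
    (hg : g ∈ Subgroup.normalizer (T : Set (Perm α))) {a : α} (ha : σ a ≠ a) :
    σ (g a) ≠ g a := by
  intro hfix
  have hb : g (σ a) ≠ g a := fun e => ha (g.injective e)
  have hbf : σ (g (σ a)) ≠ g (σ a) := fun e => hb (hσ.2 _ _ e hfix)
  have s1 : swap (g (σ a)) (σ (g (σ a))) ∈ T := h _ (inside_swap_K2 hσ _)
  have s2 : swap (g (σ a)) (g a) ∈ T := by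
    rw [swap_comm]
    exact conj_swap_mem_K2 hg (h _ (inside_swap_K2 hσ a))
  have e := swap_unique_K2 hT s1 s2 (Ne.symm hbf) hb
  have : g (σ a) = σ (g a) := by rw [← e, hσ.1]
  exact hb (this.trans hfix)

theorem normalizer_commutes {T : Subgroup (Perm α)} (hT : IsPGroup 2 T) {σ : Perm α}
    (hσ : IsPairing σ) (h : ∀ g, Inside σ g → g ∈ T) {g : Perm α}
    (hg : g ∈ Subgroup.normalizer (T : Set (Perm α))) : ∀ a, g (σ a) = σ (g a) := by
  intro a
  by_cases ha : σ a = a
  · rw [ha]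
    by_contra hne
    have hne' : σ (g a) ≠ g a := fun e => hne e.symm
    have hg' : g⁻¹ ∈ Subgroup.normalizer (T : Set (Perm α)) := inv_mem hg
    have := claimA_K2 hT hσ h hg' hne'
    simp at this
    exact this ha
  · have hA := claimA_K2 hT hσ h hg ha
    have s1 : swap (g a) (g (σ a)) ∈ T := conj_swap_mem_K2 hg (h _ (inside_swap_K2 hσ a))
    have s2 : swap (g a) (σ (g a)) ∈ T := h _ (inside_swap_K2 hσ _)
    exact swap_unique_K2 hT s1 s2 (fun e => ha (g.injective e).symm) (Ne.symm hA)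

end Cfsg.Agent.Lib.Helper76.SN
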