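import Mathlib
import Cfsg.Agent.Lib.Helper76.SN.Defs

set_option autoImplicit false

namespace Cfsg.Agent.Lib.Helper76.SN

open Equiv

universe u
variable {α : Type u} [Fintype α] [DecidableEq α]

/-- the set of the nontrivial `σ`-orbits -/
def PairSetK3 (σ : Perm α) : Type u := {s : Finset α // ∃ a, σ a ≠ a ∧ s = {a, σ a}}

noncomputable instance (σ : Perm α) : Fintype (PairSetK3 σ) := by
  classical
  unfold PairSetK3
  infer_instance

instance (σ : Perm α) : DecidableEq (PairSetK3 σ) := by
  unfold PairSetK3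
  infer_instance

omit [Fintype α] [DecidableEq α] in
theorem comm_K3 {σ : Perm α} (g : ↥(Subgroup.centralizer ({σ} : Set (Perm α)))) (a : α) :
    σ ((g : Perm α) a) = (g : Perm α) (σ a) := by
  have h := Subgroup.mem_centralizer_iff.mp g.2 σ (Set.mem_singleton _)
  exact congrArg (fun f : Perm α => f a) h

omit [Fintype α] in
theorem act_mem_K3 {σ : Perm α} (g : ↥(Subgroup.centralizer ({σ} : Set (Perm α))))
    (b : PairSetK3 σ) : ∃ a, σ a ≠ a ∧ b.1.image (g : Perm α) = {a, σ a} := by
  obtain ⟨a, ha, hs⟩ := b.2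
  refine ⟨(g : Perm α) a, ?_, ?_⟩
  · rw [comm_K3]
    intro e
    exact ha ((g : Perm α).injective e)
  · rw [hs, Finset.image_insert, Finset.image_singleton, comm_K3]

instance mulActionK3 (σ : Perm α) :
    MulAction ↥(Subgroup.centralizer ({σ} : Set (Perm α))) (PairSetK3 σ) where
  smul g b := ⟨b.1.image (g : Perm α), act_mem_K3 g b⟩
  one_smul b := Subtype.ext (by
    show b.1.image ((1 : ↥(Subgroup.centralizer ({σ} : Set (Perm α)))) : Perm α) = b.1
    ext x
    simp)
  mul_smul g h b := Subtype.ext (by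
    show b.1.image ((g * h : ↥(Subgroup.centralizer ({σ} : Set (Perm α)))) : Perm α)
      = (b.1.image (h : Perm α)).image (g : Perm α)
    rw [Finset.image_image]
    rfl)

omit [Fintype α] in
theorem smul_val_K3 {σ : Perm α} (g : ↥(Subgroup.centralizer ({σ} : Set (Perm α))))
    (b : PairSetK3 σ) : (g • b).1 = b.1.image (g : Perm α) := rfl

/-- a representative -/
noncomputable def repK3 {σ : Perm α} (b : PairSetK3 σ) : α := Classical.choose b.2

omit [Fintype α] in
theorem rep_ne_K3 {σ : Perm α} (b : PairSetK3 σ) : σ (repK3 b) ≠ repK3 b :=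
  (Classical.choose_spec b.2).1

omit [Fintype α] in
theorem rep_eq_K3 {σ : Perm α} (b : PairSetK3 σ) : b.1 = {repK3 b, σ (repK3 b)} :=
  (Classical.choose_spec b.2).2

omit [Fintype α] in
theorem eq_of_mem_K3 {σ : Perm α} (hσ : IsPairing σ) (b : PairSetK3 σ) {x : α} (hx : x ∈ b.1) :
    b.1 = {x, σ x} := by
  have h := rep_eq_K3 b
  rw [h] at hx ⊢
  rw [Finset.mem_insert, Finset.mem_singleton] at hx
  rcases hx with rfl | rfl
  · rfl
  · rw [hσ.1, Finset.pair_comm]

omit [Fintype α] [DecidableEq α] in
theorem fix_of_fix_K3 {σ : Perm α} (hσ : IsPairing σ)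
    (g : ↥(Subgroup.centralizer ({σ} : Set (Perm α)))) {a : α} (ha : σ a = a) :
    (g : Perm α) a = a := by
  apply hσ.2 _ _ _ ha
  rw [comm_K3, ha]

theorem two_mul_card_K3 {σ : Perm α} (hσ : IsPairing σ) :
    2 * Fintype.card (PairSetK3 σ) ≤ Fintype.card α := by
  have hinj : Function.Injective
      (fun p : PairSetK3 σ × Bool => if p.2 then σ (repK3 p.1) else repK3 p.1) := by
    rintro ⟨b, i⟩ ⟨b', i'⟩ h
    have hm : ∀ (c : PairSetK3 σ) (j : Bool), (if j then σ (repK3 c) else repK3 c) ∈ c.1 := by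
      intro c j
      rw [rep_eq_K3 c]
      cases j <;> simp
    have h1 := eq_of_mem_K3 hσ b (hm b i)
    have h2 := eq_of_mem_K3 hσ b' (hm b' i')
    have hbb : b = b' := by
      apply Subtype.ext
      rw [h1, h2]
      simp only at h
      rw [h]
    subst hbb
    have hne := rep_ne_K3 b
    cases i <;> cases i'
    · rfl
    · exact absurd (show repK3 b = σ (repK3 b) from h).symm hne
    · exact absurd (show σ (repK3 b) = repK3 b from h) hne
    · rfl
  have := Fintype.card_le_of_injective _ hinj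
  rw [Fintype.card_prod, Fintype.card_bool] at this
  omega

omit [Fintype α] in
theorem ker_iff_K3 {σ : Perm α} (hσ : IsPairing σ)
    (g : ↥(Subgroup.centralizer ({σ} : Set (Perm α)))) :
    MulAction.toPermHom _ (PairSetK3 σ) g = 1 ↔ Inside σ (g : Perm α) := by
  constructor
  · intro h a
    by_cases ha : σ a = a
    · left
      exact fix_of_fix_K3 hσ g ha
    · let b0 : PairSetK3 σ := ⟨{a, σ a}, a, ha, rfl⟩
      have hb0 : g • b0 = b0 := DFunLike.congr_fun h b0
      have hb : ({a, σ a} : Finset α).image (g : Perm α) = {a, σ a} :=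
        congrArg Subtype.val hb0
      have : (g : Perm α) a ∈ ({a, σ a} : Finset α) := by
        rw [← hb]
        simp
      simpa using this
  · intro h
    ext b
    simp only [MulAction.toPermHom_apply, MulAction.toPerm_apply, Perm.coe_one, id_eq]
    apply Subtype.ext
    rw [smul_val_K3, rep_eq_K3 b, Finset.image_insert, Finset.image_singleton, ← comm_K3]
    rcases h (repK3 b) with e | e
    · rw [e]
    · rw [e, hσ.1, Finset.pair_comm]

theorem card_ker_K3 {σ : Perm α} (hσ : IsPairing σ) :
    Nat.card (MulAction.toPermHom ↥(Subgroup.centralizer ({σ} : Set (Perm α)))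
      (PairSetK3 σ)).ker ≤ 2 ^ Fintype.card (PairSetK3 σ) := by
  classical
  have hinj : Function.Injective
      (fun (g : (MulAction.toPermHom ↥(Subgroup.centralizer ({σ} : Set (Perm α)))
        (PairSetK3 σ)).ker) (b : PairSetK3 σ) =>
          decide (((g : ↥(Subgroup.centralizer ({σ} : Set (Perm α)))) : Perm α) (repK3 b)
            = repK3 b)) := by
    intro g g' h
    apply Subtype.ext
    apply Subtype.ext
    have hg := (ker_iff_K3 hσ g.1).mp g.2
    have hg' := (ker_iff_K3 hσ g'.1).mp g'.2
    have key : ∀ b : PairSetK3 σ, (g.1 : Perm α) (repK3 b) = (g'.1 : Perm α) (repK3 b) := by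
      intro b
      have hb := congrFun h b
      simp only [decide_eq_decide] at hb
      rcases hg (repK3 b) with e | e
      · rw [e, hb.mp e]
      · rcases hg' (repK3 b) with e' | e'
        · have := hb.mpr e'
          rw [this, e']
        · rw [e, e']
    ext a
    by_cases ha : σ a = a
    · rw [fix_of_fix_K3 hσ g.1 ha, fix_of_fix_K3 hσ g'.1 ha]
    · have hr : repK3 (⟨{a, σ a}, a, ha, rfl⟩ : PairSetK3 σ) ∈ ({a, σ a} : Finset α) := by
        have := rep_eq_K3 (⟨{a, σ a}, a, ha, rfl⟩ : PairSetK3 σ)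
        have h2 : repK3 (⟨{a, σ a}, a, ha, rfl⟩ : PairSetK3 σ) ∈
            (⟨{a, σ a}, a, ha, rfl⟩ : PairSetK3 σ).1 := by
          rw [this]; simp
        exact h2
      have hk := key ⟨{a, σ a}, a, ha, rfl⟩
      rw [Finset.mem_insert, Finset.mem_singleton] at hr
      rcases hr with e | e
      · rw [e] at hk
        exact hk
      · rw [e] at hk
        rw [← comm_K3, ← comm_K3] at hk
        exact σ.injective hk
  have := Nat.card_le_card_of_injective _ hinj
  rw [Nat.card_eq_fintype_card (α := PairSetK3 σ → Bool), Fintype.card_fun, Fintype.card_bool]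
    at this
  exact this

theorem exists_quotient_action {σ : Perm α} (hσ : IsPairing σ) :
    ∃ (β : Type u) (_ : Fintype β) (_ : DecidableEq β)
      (π : ↥(Subgroup.centralizer ({σ} : Set (Perm α))) →* Perm β),
      2 * Fintype.card β ≤ Fintype.card α ∧ (∀ g, π g = 1 ↔ Inside σ (g : Perm α)) ∧
        Nat.card π.ker ≤ 2 ^ Fintype.card β :=
  ⟨PairSetK3 σ, inferInstance, inferInstance, MulAction.toPermHom _ _,
    two_mul_card_K3 hσ, ker_iff_K3 hσ, card_ker_K3 hσ⟩

end Cfsg.Agent.Lib.Helper76.SN
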