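import Mathlib
import Cfsg.Agent.Lib.Helper76.SN.K1
import Cfsg.Agent.Lib.Helper76.SN.K2
import Cfsg.Agent.Lib.Helper76.SN.K3

set_option autoImplicit false

namespace Cfsg.Agent.Lib.Helper76.SN

open Equiv

universe u

theorem num_aux {n m k c : ℕ} (h2 : 2 * m ≤ n) (hk : 2 ^ k ∣ m.factorial)
    (hc : c ≤ 2 ^ m) (he : c * 2 ^ k = 2 ^ (n.factorial.factorization 2)) :
    k = m.factorial.factorization 2 := by
  have h1 : k ≤ m.factorial.factorization 2 :=
    (Nat.Prime.pow_dvd_iff_le_factorization Nat.prime_two (Nat.factorial_ne_zero m)).mp hk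
  have h3 : (2 * m).factorial.factorization 2 ≤ n.factorial.factorization 2 :=
    (Nat.factorization_le_iff_dvd (Nat.factorial_ne_zero _) (Nat.factorial_ne_zero _)).mpr
      (Nat.factorial_dvd_factorial h2) 2
  rw [Nat.factorization_factorial_mul Nat.prime_two] at h3
  have h4 : 2 ^ (n.factorial.factorization 2) ≤ 2 ^ (m + k) := by
    rw [← he, pow_add]
    exact Nat.mul_le_mul_right _ hc
  have h5 : n.factorial.factorization 2 ≤ m + k :=
    (Nat.pow_le_pow_iff_right (by norm_num)).mp h4
  omega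

theorem sym_aux : ∀ (n : ℕ) (α : Type u) [Fintype α] [DecidableEq α], Fintype.card α = n →
    ∀ T : Sylow 2 (Perm α),
      Subgroup.normalizer ((T : Subgroup (Perm α)) : Set (Perm α)) ≤ (T : Subgroup (Perm α)) := by
  intro n
  induction n using Nat.strong_induction_on with
  | _ n ih =>
  intro α _ _ hα T
  rcases Nat.eq_zero_or_pos n with h0 | hpos
  · intro g _
    have : IsEmpty α := Fintype.card_eq_zero_iff.mp (hα.trans h0)
    have : g = 1 := Equiv.ext fun a => (IsEmpty.false a).elim
    rw [this]; exact Subgroup.one_mem _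
  obtain ⟨σ, hσ, hin⟩ := exists_pairing T
  set C := Subgroup.centralizer ({σ} : Set (Perm α)) with hC
  obtain ⟨β, _, _, π, hcard, hker, hkc⟩ :
    ∃ (β : Type u) (_ : Fintype β) (_ : DecidableEq β) (π : ↥C →* Perm β),
      2 * Fintype.card β ≤ Fintype.card α ∧
      (∀ g, π g = 1 ↔ Inside σ (g : Perm α)) ∧
      Nat.card π.ker ≤ 2 ^ Fintype.card β := exists_quotient_action hσ
  set N := Subgroup.normalizer ((T : Subgroup (Perm α)) : Set (Perm α)) with hN
  have hNC : N ≤ C := by
    intro g hg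
    rw [hC, Subgroup.mem_centralizer_iff]
    intro h hh
    rw [Set.mem_singleton_iff] at hh
    subst hh
    ext a
    simp only [Perm.mul_apply]
    exact (normalizer_commutes T.2 hσ hin hg a).symm
  have hTC : (T : Subgroup (Perm α)) ≤ C := Subgroup.le_normalizer.trans hNC
  set T₁ := (T : Subgroup (Perm α)).subgroupOf C with hT₁
  set T' := T₁.map π with hT'
  have hkerT : π.ker ≤ T₁ := by
    intro x hx
    rw [MonoidHom.mem_ker, hker] at hx
    exact Subgroup.mem_subgroupOf.mpr (hin _ hx)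
  have hc1 : Nat.card π.ker * Nat.card T' = Nat.card T₁ := by
    have := Subgroup.relIndex_mul_relIndex ⊥ π.ker T₁ bot_le hkerT
    rwa [Subgroup.relIndex_bot_left, Subgroup.relIndex_bot_left, Subgroup.relIndex_ker] at this
  have hc2 : Nat.card T₁ = Nat.card (T : Subgroup (Perm α)) :=
    Nat.card_congr (Subgroup.subgroupOfEquivOfLe hTC).toEquiv
  have hc3 : Nat.card (T : Subgroup (Perm α)) = 2 ^ (n.factorial.factorization 2) := by
    rw [T.card_eq_multiplicity, Nat.card_eq_fintype_card, Fintype.card_perm, hα]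
  have hT'p : IsPGroup 2 T' := by
    have h1 : IsPGroup 2 T₁ := T.2.comap_subtype
    exact h1.map π
  obtain ⟨k, hk⟩ := hT'p.exists_card_eq
  have hdvd : 2 ^ k ∣ (Fintype.card β).factorial := by
    rw [← hk, ← Fintype.card_perm, ← Nat.card_eq_fintype_card]
    exact Subgroup.card_subgroup_dvd_card T'
  have hk2 : k = (Fintype.card β).factorial.factorization 2 := by
    apply num_aux (n := n) (c := Nat.card π.ker) (hα ▸ hcard) hdvd hkc
    rw [← hk, hc1, hc2, hc3]
  have hcT' : Nat.card T' = 2 ^ (Nat.card (Perm β)).factorization 2 := by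
    rw [hk, hk2, Nat.card_eq_fintype_card, Fintype.card_perm]
  have hlt : Fintype.card β < n := by omega
  have hih := ih _ hlt β rfl (Sylow.ofCard T' hcT')
  rw [Sylow.coe_ofCard] at hih
  intro g hg
  have hgC : g ∈ C := hNC hg
  have h1 : (⟨g, hgC⟩ : C) ∈ Subgroup.normalizer ((T₁ : Subgroup C) : Set C) := by
    rw [Subgroup.mem_normalizer_iff]
    intro x
    rw [hT₁, Subgroup.mem_subgroupOf, Subgroup.mem_subgroupOf]
    exact (Subgroup.mem_normalizer_iff.mp hg) x
  have h2 : π ⟨g, hgC⟩ ∈ T' :=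
    hih (Subgroup.le_normalizer_map π (Subgroup.mem_map_of_mem π h1))
  obtain ⟨t, ht, hte⟩ := h2
  have h3 : t⁻¹ * ⟨g, hgC⟩ ∈ π.ker := by
    rw [MonoidHom.mem_ker, map_mul, map_inv, hte]; group
  have h4 := T₁.mul_mem ht (hkerT h3)
  rw [mul_inv_cancel_left] at h4
  exact Subgroup.mem_subgroupOf.mp h4

/-- Sylow 2-subgroups of symmetric groups are self-normalising. -/
theorem sym_self_normalizing {α : Type u} [Fintype α] [DecidableEq α] (T : Sylow 2 (Perm α)) :
    Subgroup.normalizer ((T : Subgroup (Perm α)) : Set (Perm α)) = (T : Subgroup (Perm α)) :=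
  le_antisymm (sym_aux _ α rfl T) Subgroup.le_normalizer

end Cfsg.Agent.Lib.Helper76.SN
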