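import Mathlib
import Cfsg.Agent.Lib.Helper76.SN.Sym
import Cfsg.Agent.Lib.Helper76.SN.B1

set_option autoImplicit false

namespace Cfsg.Agent.Lib.Helper76.SN

open Equiv

universe u
variable {α : Type u} [Fintype α] [DecidableEq α]

theorem exists_moved (h2 : 2 ≤ Fintype.card α) {σ : Perm α} (hσ : IsPairing σ) :
    ∃ a, σ a ≠ a := by
  obtain ⟨a, b, hab⟩ := Fintype.one_lt_card_iff.mp h2
  by_contra hcon
  push Not at hcon
  exact hab (hσ.2 a b (hcon a) (hcon b))

/-- the Sylow 2-subgroup of `Perm α` above a Sylow 2-subgroup of the alternating group is unique -/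
theorem sylow_above_unique (h6 : 6 ≤ Fintype.card α) {S : Subgroup (Perm α)}
    (T T' : Sylow 2 (Perm α)) (hT : (T : Subgroup (Perm α)) ⊓ alternatingGroup α ≤ S)
    (hST' : S ≤ T') : T' = T := by
  obtain ⟨σ, hσ, hin⟩ := exists_pairing T
  obtain ⟨σ', hσ', hin'⟩ := exists_pairing T'
  have he : σ' = σ := by
    apply pairing_unique h6 hσ hσ'
    intro g hg hs
    have h1 : g ∈ (T' : Subgroup (Perm α)) :=
      hST' (hT ⟨hin g hg, Perm.mem_alternatingGroup.mpr hs⟩)
    exact normalizer_commutes T'.2 hσ' hin' (Subgroup.le_normalizer h1)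
  subst he
  obtain ⟨a, ha⟩ := exists_moved (by omega) hσ
  have hle : (T : Subgroup (Perm α)) ≤ T' := by
    intro x hx
    rcases Int.units_eq_one_or (Perm.sign x) with hs | hs
    · exact hST' (hT ⟨hx, Perm.mem_alternatingGroup.mpr hs⟩)
    · have ht : swap a (σ' a) ∈ (T : Subgroup (Perm α)) := hin _ (inside_swap hσ a)
      have ht' : swap a (σ' a) ∈ (T' : Subgroup (Perm α)) := hin' _ (inside_swap hσ a)
      have h1 : x * swap a (σ' a) ∈ (T' : Subgroup (Perm α)) := by
        apply hST' (hT ⟨Subgroup.mul_mem _ hx ht, ?_⟩)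
        apply Perm.mem_alternatingGroup.mpr
        rw [Perm.sign_mul, hs, Perm.sign_swap (Ne.symm ha)]
        simp
      have h2 := Subgroup.mul_mem _ h1 ht'
      rwa [mul_assoc, swap_mul_self, mul_one] at h2
  exact Sylow.ext (T.3 T'.2 hle)

/-- Sylow 2-subgroups of alternating groups of degree at least 6 are self-normalising. -/
theorem alt_self_normalizing (h6 : 6 ≤ Fintype.card α) (P : Sylow 2 (alternatingGroup α)) :
    Subgroup.normalizer ((P : Subgroup (alternatingGroup α)) : Set (alternatingGroup α)) =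
      (P : Subgroup (alternatingGroup α)) := by
  apply le_antisymm _ Subgroup.le_normalizer
  set S : Subgroup (Perm α) := (P : Subgroup (alternatingGroup α)).map (alternatingGroup α).subtype
    with hS
  have hSp : IsPGroup 2 S := P.2.map _
  obtain ⟨T, hST⟩ := hSp.exists_le_sylow
  have hmem : ∀ x : alternatingGroup α, (x : Perm α) ∈ (T : Subgroup (Perm α)) →
      x ∈ (P : Subgroup (alternatingGroup α)) := by
    have h1 : IsPGroup 2 ((T : Subgroup (Perm α)).subgroupOf (alternatingGroup α)) :=
      T.2.comap_subtype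
    have h2 : (P : Subgroup (alternatingGroup α)) ≤
        (T : Subgroup (Perm α)).subgroupOf (alternatingGroup α) := by
      intro x hx
      exact Subgroup.mem_subgroupOf.mpr (hST (Subgroup.mem_map_of_mem _ hx))
    have h3 := P.3 h1 h2
    intro x hx
    rw [← h3]
    exact Subgroup.mem_subgroupOf.mpr hx
  have hTA : (T : Subgroup (Perm α)) ⊓ alternatingGroup α ≤ S := by
    rintro x ⟨hx1, hx2⟩
    exact ⟨⟨x, hx2⟩, hmem ⟨x, hx2⟩ hx1, rfl⟩
  intro x hx
  apply hmem
  have hxS : (x : Perm α) ∈ Subgroup.normalizer (S : Set (Perm α)) :=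
    Subgroup.le_normalizer_map _ (Subgroup.mem_map_of_mem (alternatingGroup α).subtype hx)
  rw [← sym_self_normalizing T]
  have key : (x : Perm α) • T = T := by
    apply sylow_above_unique h6 T _ hTA
    intro s hs
    rw [Sylow.coe_subgroup_smul, Subgroup.mem_pointwise_smul_iff_inv_smul_mem]
    apply hST
    have := (Subgroup.mem_normalizer_iff.mp (Subgroup.inv_mem _ hxS) s).mp hs
    simpa [MulAut.smul_def, MulAut.conj_apply] using this
  exact Sylow.smul_eq_iff_mem_normalizer.mp key

end Cfsg.Agent.Lib.Helper76.SN
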