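import Mathlib
import Cfsg.Agent.Lib.Helper71.PronormalSylow

set_option autoImplicit false

namespace Cfsg.Agent.Lib.Helper76.SN

open Cfsg.Agent.Lib.Helper71 Cfsg.Agent.Lib.Helper34

variable {G : Type*} [Group G] [Finite G]

theorem isPronormal_sylow {p : ℕ} [Fact p.Prime] (P : Sylow p G) :
    Cfsg.IsPronormal (P : Subgroup G) := by
  intro g
  change ∃ x ∈ (P : Subgroup G) ⊔ cj g (P : Subgroup G), cj g (P : Subgroup G) = cj x (P : Subgroup G)
  have hP : IsSylowIn p (P : Subgroup G) ((P : Subgroup G) ⊔ cj g (P : Subgroup G)) :=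
    (Sylow.isSylowIn_top P).of_le le_sup_left le_top
  obtain ⟨b, hb, hbe⟩ := exists_cj_eq_of_isSylowIn hP (g := g) le_sup_right
  refine ⟨b⁻¹, Subgroup.inv_mem _ hb, ?_⟩
  rw [cj_mul] at hbe
  conv_rhs => rw [← hbe]
  rw [cj_inv_cj]

theorem isPronormal_of_prime_index {H : Subgroup G} (h : H.index.Prime) :
    Cfsg.IsPronormal H := by
  intro g
  change ∃ x ∈ H ⊔ cj g H, cj g H = cj x H
  have h1 := Subgroup.relIndex_mul_index (le_sup_left : H ≤ H ⊔ cj g H)
  have h2 : (H ⊔ cj g H).index ∣ H.index := Dvd.intro_left _ h1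
  rcases (Nat.dvd_prime h).mp h2 with h3 | h3
  · rw [Subgroup.index_eq_one] at h3
    exact ⟨g, h3 ▸ Subgroup.mem_top g, rfl⟩
  · rw [h3] at h1
    have h4 : H.relIndex (H ⊔ cj g H) = 1 := by
      have hpos : 0 < H.index := h.pos
      nlinarith
    rw [Subgroup.relIndex_eq_one] at h4
    refine ⟨1, Subgroup.one_mem _, ?_⟩
    rw [cj_one]
    exact cj_eq_of_le (le_sup_right.trans h4)

omit [Finite G] in
theorem isPronormal_top : Cfsg.IsPronormal (⊤ : Subgroup G) := by
  intro g
  exact ⟨g, by simp, rfl⟩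

theorem index_ne_three_of_simple [IsSimpleGroup G] (hc : ¬ Nat.card G ∣ 6) (H : Subgroup G) :
    H.index ≠ 3 := by
  intro h3
  have h : H.normalCore.index ∣ (H.index).factorial := by
    rw [Subgroup.normalCore_eq_ker, Subgroup.index_ker, Subgroup.index_eq_card, ← Nat.card_perm]
    exact Subgroup.card_subgroup_dvd_card (MulAction.toPermHom G (G ⧸ H)).range
  rcases (H.normalCore_normal).eq_bot_or_eq_top with hb | ht
  · rw [hb, Subgroup.index_bot, h3] at h
    exact hc h
  · have : H = ⊤ := top_le_iff.mp (ht ▸ H.normalCore_le)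
    rw [this, Subgroup.index_top] at h3
    omega

theorem alt_five (H : Subgroup (alternatingGroup (Fin 5))) (hH : Odd H.index) :
    Cfsg.IsPronormal H := by
  have hcard : Nat.card (alternatingGroup (Fin 5)) = 60 := by
    rw [nat_card_alternatingGroup]; simp [Nat.factorial]
  have hdvd : H.index ∣ 60 := hcard ▸ H.index_dvd_card
  have hmem : H.index ∈ Nat.divisors 60 := Nat.mem_divisors.mpr ⟨hdvd, by norm_num⟩
  have hdiv : Nat.divisors 60 = {1, 2, 3, 4, 5, 6, 10, 12, 15, 20, 30, 60} := by decide +kernel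
  rw [hdiv] at hmem
  simp only [Finset.mem_insert, Finset.mem_singleton] at hmem
  have hsimple : IsSimpleGroup (alternatingGroup (Fin 5)) := alternatingGroup.isSimpleGroup (by simp)
  have h3 : H.index ≠ 3 := index_ne_three_of_simple (by rw [hcard]; norm_num) H
  have hodd : ¬ 2 ∣ H.index := hH.not_two_dvd_nat
  have hcases : H.index = 1 ∨ H.index = 5 ∨ H.index = 15 := by omega
  rcases hcases with h | h | h
  · rw [Subgroup.index_eq_one] at h
    rw [h]; exact isPronormal_top
  · exact isPronormal_of_prime_index (by rw [h]; norm_num)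
  · have hc : Nat.card H = 4 := by
      have := H.card_mul_index
      rw [h, hcard] at this
      omega
    have hc2 : Nat.card H = 2 ^ (Nat.card (alternatingGroup (Fin 5))).factorization 2 := by
      rw [hc, hcard]
      have : (60 : ℕ).factorization 2 = 2 := by
        rw [Nat.factorization_def _ Nat.prime_two]
        have : (60 : ℕ) = 2 ^ 2 * 15 := by norm_num
        rw [this, padicValNat.mul (by norm_num) (by norm_num), padicValNat.prime_pow,
          padicValNat.eq_zero_of_not_dvd (by norm_num)]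
      rw [this]; norm_num
    have := isPronormal_sylow (Sylow.ofCard H hc2)
    rwa [Sylow.coe_ofCard] at this

end Cfsg.Agent.Lib.Helper76.SN
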